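import Cfsg.Agent.H496.Mono.Stmt
import Cfsg.Agent.Nodes.SimplyLaced

/-!
# S2187, X4, p = 3: the assembly (helper496, piece M7)

* `LL_all` : in the simply laced types all roots are long;
* `inS_all` : all orbit types;
* `gamY_of` : `GamY m.ι 3 E = ⊤` from the pieces.
* `genIn_F4_three`, `genIn_E7_three`, `genIn_E8_three`, `genIn_E6_three`.
-/

set_option autoImplicit false
set_option linter.unusedSectionVars false

namespace Cfsg.Agent.H496.Mono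

open CoxeterSystem Cfsg Cfsg.Lie Cfsg.Lie.ChevalleyDatum
open Cfsg.Agent.ChevalleyStructure Cfsg.Agent.ChevalleyStructure.Elts Cfsg.Agent.ChevalleyStructure.CoxeterGeom
  Cfsg.Agent.ChevalleyStructure.CoxeterGeomTypes Cfsg.Agent.ChevalleyStructure.NPerm
open Cfsg.Agent.Tits.Roots Cfsg.Agent.Tits.Core Cfsg.Agent.Nodes Cfsg.Agent.Nodes.Reps Cfsg.Agent.Nodes.BNOf
  Cfsg.Agent.Nodes.SubComb Cfsg.Agent.Nodes.RGDChev Cfsg.Agent.Nodes.Bruhat Cfsg.Agent.Nodes.Coroot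
open Cfsg.Agent.KFacts.RgdField Cfsg.Agent.KFacts.RgdChevCoord
open Cfsg.Agent.BpExc Cfsg.Agent.BpExc.TorCent Cfsg.Agent.BpExc.TorChev Cfsg.Agent.BpExc.Tow
  Cfsg.Agent.BpExc.TowChev Cfsg.Agent.BpExc.Fr Cfsg.Agent.BpExc.LangFr
open Cfsg.Agent.H469.Exc Cfsg.Agent.H316.U6 Cfsg.Agent.H818.Gen Cfsg.Agent.H818.Mono Cfsg.Agent.H696.GmnToral
open Cfsg.Agent.H225.Gen (LL LL_rep LL_root LL_neg LL_refl sr_nd_mem all_nodes pairing_sr')
open Cfsg.Agent.H818.StrP.UTab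

universe v

variable {D : ChevalleyDatum} {l : ℕ} {M : CoxeterMatrix (Fin l)} (hp : IsType D l M)

/-- in the simply laced types all roots are long -/
theorem LL_all (h : HiList D) (h4 : ∀ i j, M i j ≠ 4) (h6 : ∀ i j, M i j ≠ 6) {a : Fin l → ℤ}
    (ha : IsRoot M.toCoxeterSystem hp.isCartan a) : a ∈ LL M.toCoxeterSystem hp := by
  have := finite_W hp M.toCoxeterSystem
  have key : ∀ i, (sr i : Fin l → ℤ) ∈ LL M.toCoxeterSystem hp := by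
    refine all_nodes h hp _ (sr_nd_mem h hp M.toCoxeterSystem) ?_
    intro i j hi hij
    by_cases e : i = j
    · rw [← e]; exact hi
    have hri := isRoot_sr M.toCoxeterSystem hp.isCartan i
    have hrj := isRoot_sr M.toCoxeterSystem hp.isCartan j
    have h1 : cpr M.toCoxeterSystem hp.isCartan (sr j) (sr i) = cartanOf D l i j := by
      rw [cpr_sr, pairing_sr']
    have h2 := SimplyLaced.cpr_symm M.toCoxeterSystem hp.isCartan h4 h6 hri hrj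
    have h3 : |cpr M.toCoxeterSystem hp.isCartan (sr j) (sr i)| ≤ 1 := by
      refine SimplyLaced.abs_cpr_le_one M.toCoxeterSystem hp.isCartan h4 h6 hrj hri ?_ ?_
      · intro e1
        have := congrFun e1 j
        rw [sr_self, sr_ne (fun h => e h.symm)] at this
        omega
      · intro e1
        have := congrFun e1 j
        rw [sr_self, Pi.neg_apply, sr_ne (fun h => e h.symm)] at this
        omega
    rw [h1] at h3 h2
    have h5 := LL_refl hp M.toCoxeterSystem hi hrj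
    rw [h2] at h5
    have h7 := LL_refl hp M.toCoxeterSystem h5 hri
    have h8 : cpr M.toCoxeterSystem hp.isCartan (sr i - cartanOf D l i j • sr j) (sr i) = 1 := by
      rw [sub_eq_add_neg, cpr_add M.toCoxeterSystem _ _ _ hri, cpr_neg M.toCoxeterSystem _ _ hri, cpr_self _ _ hri,
        cpr_smul M.toCoxeterSystem _ _ _ hri, h1]
      have h9 := abs_le.1 h3
      have h10 : cartanOf D l i j = 1 ∨ cartanOf D l i j = -1 := by omega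
      rcases h10 with h10 | h10 <;> rw [h10] <;> norm_num
    rw [h8, one_smul] at h7
    have h9 := abs_le.1 h3
    have h10 : cartanOf D l i j = 1 ∨ cartanOf D l i j = -1 := by omega
    rcases h10 with h10 | h10
    · rw [h10, one_smul, sub_sub, sub_add_eq_sub_sub_swap, sub_self, zero_sub] at h7
      have := LL_neg h hp M.toCoxeterSystem h7
      rwa [neg_neg] at this
    · rw [h10, neg_one_smul, sub_neg_eq_add, add_sub_cancel_left] at h7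
      exact h7
  obtain ⟨w, i, rfl⟩ := ha
  exact LL_rep hp M.toCoxeterSystem (key i) w

variable {hp}

/-- **All orbit types.** -/
theorem inS_all (h : HiList D) {r : ℕ} [Fact r.Prime] (hT : PTrich hp) (hF : P5 hp r 3 (OrbF hp))
    (hO : P5 hp r 3 (OrbO hp)) (hA : P5 hp r 3 (OrbA hp)) (hN : P5 hp r 3 (OrbN hp)) {e : ℕ}
    {τ : MulAut ↥(D.group (KK r))} {γ : (Fin l → ℤ) ≃+ (Fin l → ℤ)} {E H : Subgroup ↥(D.group (KK r))}
    (S : Sit hp r 3 e τ γ E H) (hE2 : 3 ^ 2 ≤ Nat.card ↥E) (hr2 : r ≠ 2) (hr3 : 3 ≠ r) (hq : 5 ≤ r ^ e) {ε : ℤ} (hε : Eps 3 (r ^ e) ε)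
    (hNP : NoPlus hp r E (SS hp γ ε)) {a : Fin l → ℤ} (ha : a ∈ SS hp γ ε) : InS r l τ H {a, -a} := by
  rcases hT (VE hp r E) (fun v hv w hw => VE_comm S hv hw) (fun v hv => VE_pow S hv) (SS hp γ ε) SS_LL
    (fun v hv a ha => VE_SS S h hv ha) (fun v hv a ha => by
      obtain ⟨y, hy, h1⟩ := hv
      exact hNP y hy v h1 a ha) a ha with h1 | h1 | h1 | h1
  · exact hF e τ γ E H S hE2 hr2 hr3 hq ε hε a ha h1
  · exact hO e τ γ E H S hE2 hr2 hr3 hq ε hε a ha h1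
  · exact hA e τ γ E H S hE2 hr2 hr3 hq ε hε a ha h1
  · exact hN e τ γ E H S hE2 hr2 hr3 hq ε hε a ha h1

variable {r : ℕ} [Fact r.Prime] {q : ℕ} {K₀ : Type v} [Group K₀]

/-- the pieces (`noPlusA` only for `γ = ε`) -/
structure Pcs (m : MData hp r q K₀) : Prop where
  trich : PTrich hp
  orbF : P5 hp r 3 (OrbF hp)
  orbO : P5 hp r 3 (OrbO hp)
  orbA : P5 hp r 3 (OrbA hp)
  orbN : P5 hp r 3 (OrbN hp)
  noPlusA : PNoPlusA m

/-- **The assembly.** -/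
theorem gamY_of (h : HiList D) (hG2 : D ≠ chevG2) (m : MData hp r q K₀) [IsSimpleGroup K₀] (P : Pcs m)
    (hr2 : r ≠ 2) (hr3 : 3 ≠ r) (hq : 5 ≤ q)
    {γ : (Fin l → ℤ) ≃+ (Fin l → ℤ)} {ε : ℤ} (hε : Eps 3 q ε) (hP6 : PNoPlusAt m γ ε) (hP1 : P1 m γ)
    {E : Subgroup ↥(D.group (KK r))} (hE : IsElementaryAbelian 3 E) (hσ : ∀ y ∈ E, m.σ y = y) (hE2 : 3 ^ 2 ≤ Nat.card E)
    (hend : ∀ z, NFrame m E z γ → NoPlus hp r (E.map (MulAut.conj z⁻¹).toMonoidHom) (SS hp γ ε) →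
      (∃ f ∈ E, z⁻¹ * f * z ∉ TT D (KK r)) →
      (∀ a ∈ SS hp γ ε, InS r l (MulAut.conj (z⁻¹ * m.σ z) * m.σ) (HZ m 3 E z) {a, -a}) → GamY m.ι 3 E = ⊤) :
    GamY m.ι 3 E = ⊤ := by
  have := Fact.mk Nat.prime_three
  by_cases ht : ∃ z : ↥(D.group (KK r)), ∀ a ∈ E, z * a * z⁻¹ ∈ TT D (KK r)
  · obtain ⟨z, hz⟩ := ht
    exact H225.Gen.x12 m h (by omega) (fun h1 => absurd h1 hG2) hE hσ hE2 hz
      (Or.inl (H225.Gen.three_not_dvd_sq q))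
  · push Not at ht
    obtain ⟨z, hz⟩ := hP1 E hE hσ
    obtain ⟨z', hz', hNP⟩ := hP6 E hE hσ hr2 hr3 hq z hε hz
    refine hend z' hz' hNP ?_ fun a ha => ?_
    · obtain ⟨f, hf, h1⟩ := ht z'⁻¹
      rw [inv_inv] at h1
      exact ⟨f, hf, h1⟩
    · have hcard : Nat.card ↥(E.map (MulAut.conj z'⁻¹).toMonoidHom) = Nat.card ↥E :=
        Subgroup.card_map_of_injective (MulAut.conj z'⁻¹).injective
      refine inS_all h P.trich P.orbF P.orbO P.orbA P.orbN (hz'.sit hE hσ) (by rw [hcard]; exact hE2) hr2 hr3 ?_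
        (ε := ε) ?_ hNP ha
      · rw [m.hq]; exact hq
      · rw [m.hq]; exact hε

/-- the sign exists -/
theorem exists_eps (m : MData hp r q K₀) (hr3 : 3 ≠ r) : ∃ ε, Eps 3 q ε := by
  have h1 : ¬ 3 ∣ q := by
    intro h
    rw [← m.hq] at h
    have h2 := Nat.prime_three.dvd_of_dvd_pow h
    exact hr3 ((Nat.prime_dvd_prime_iff_eq Nat.prime_three Fact.out).1 h2)
  have h2 : q % 3 = 1 ∨ q % 3 = 2 := by omega
  rcases h2 with h2 | h2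
  · exact ⟨1, Or.inl rfl, by push_cast; omega⟩
  · exact ⟨-1, Or.inr rfl, by push_cast; omega⟩

/-- **`E₇`, `E₈`, and matched `E₆`.** -/
theorem gamY_laced (h : HiList D) (hG2 : D ≠ chevG2) (h4 : ∀ i j, M i j ≠ 4) (h6 : ∀ i j, M i j ≠ 6)
    (m : MData hp r q K₀) [IsSimpleGroup K₀] (P : Pcs m) (hP8 : P8a m) (hr2 : r ≠ 2) (hr3 : 3 ≠ r) (hq : 5 ≤ q)
    {ε : ℤ} (hε : Eps 3 q ε) {γ : (Fin l → ℤ) ≃+ (Fin l → ℤ)} (hγ : ∀ x, γ x = ε • x) (hP1 : P1 m γ)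
    {E : Subgroup ↥(D.group (KK r))} (hE : IsElementaryAbelian 3 E) (hσ : ∀ y ∈ E, m.σ y = y)
    (hE2 : 3 ^ 2 ≤ Nat.card E) : GamY m.ι 3 E = ⊤ :=
  gamY_of h hG2 m P hr2 hr3 hq hε (P.noPlusA γ ε hγ) hP1 hE hσ hE2 fun z hz _ _ hall =>
    hP8 E hE hσ hr2 hr3 hq z _ ε hε hγ hz fun a ha => hall a ⟨LL_all hp h h4 h6 ha, hγ a⟩

/-- frames for `γ = ε` -/
def P1e (m : MData hp r q K₀) : Prop := ∀ ε, Eps 3 q ε → ∃ γ, (∀ x, γ x = ε • x) ∧ P1 m γ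

theorem genIn_laced (h : HiList D) (hG2 : D ≠ chevG2) (h4 : ∀ i j, M i j ≠ 4) (h6 : ∀ i j, M i j ≠ 6)
    (m : MData hp r q K₀) [IsSimpleGroup K₀] (P : Pcs m) (hP8 : P8a m) (hP1 : P1e m) (hr2 : r ≠ 2) (hr3 : 3 ≠ r)
    (hq : 5 ≤ q) : GenIn m 3 := by
  intro E hE hσ hE2
  obtain ⟨ε, hε⟩ := exists_eps m hr3
  obtain ⟨γ, hγ, hP⟩ := hP1 ε hε
  exact gamY_laced h hG2 h4 h6 m P hP8 hr2 hr3 hq hε hγ hP hE hσ hE2

end Cfsg.Agent.H496.Mono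

namespace Cfsg.Agent.H496.Mono

open CoxeterSystem Cfsg Cfsg.Lie Cfsg.Lie.ChevalleyDatum
open Cfsg.Agent.ChevalleyStructure Cfsg.Agent.ChevalleyStructure.CoxeterGeomTypes Cfsg.Agent.Nodes.RGDChev
  Cfsg.Agent.H316.U6 Cfsg.Agent.H818.Gen Cfsg.Agent.H818.Mono
open Cfsg.Agent.H818.StrP.UTab Cfsg.Agent.H123.ExcComb Cfsg.Agent.H469.Exc
open Cfsg.Agent.H225.Gen (hi_F4 hi_E6 hi_E7 hi_E8)

universe v

set_option backward.isDefEq.respectTransparency false in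
theorem n6 : ∀ i j : Fin 6, CoxeterMatrix.E₆ i j ≠ 4 ∧ CoxeterMatrix.E₆ i j ≠ 6 := by decide
set_option backward.isDefEq.respectTransparency false in
theorem n7 : ∀ i j : Fin 7, CoxeterMatrix.E₇ i j ≠ 4 ∧ CoxeterMatrix.E₇ i j ≠ 6 := by decide
set_option backward.isDefEq.respectTransparency false in
theorem n8 : ∀ i j : Fin 8, CoxeterMatrix.E₈ i j ≠ 4 ∧ CoxeterMatrix.E₈ i j ≠ 6 := by decide

variable {r q : ℕ} [Fact r.Prime] {K₀ : Type v} [Group K₀] [IsSimpleGroup K₀]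

/-- **`E₇`, p = 3.** -/
theorem genIn_E7_three {hp : IsType chevE7 7 CoxeterMatrix.E₇} (m : MData hp r q K₀) (P : Pcs m) (hP8 : P8a m)
    (hP1 : P1e m) (hr2 : r ≠ 2) (hr3 : 3 ≠ r) (hq : 5 ≤ q) : GenIn m 3 :=
  genIn_laced hi_E7 (ne_of_apply_ne ChevalleyDatum.nroots (by decide +kernel)) (fun i j => (n7 i j).1)
    (fun i j => (n7 i j).2) m P hP8 hP1 hr2 hr3 hq

/-- **`E₈`, p = 3.** -/
theorem genIn_E8_three {hp : IsType chevE8 8 CoxeterMatrix.E₈} (m : MData hp r q K₀) (P : Pcs m) (hP8 : P8a m)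
    (hP1 : P1e m) (hr2 : r ≠ 2) (hr3 : 3 ≠ r) (hq : 5 ≤ q) : GenIn m 3 :=
  genIn_laced hi_E8 (ne_of_apply_ne ChevalleyDatum.nroots (by decide +kernel)) (fun i j => (n8 i j).1)
    (fun i j => (n8 i j).2) m P hP8 hP1 hr2 hr3 hq

/-- **`F₄`, p = 3.** -/
theorem genIn_F4_three {hp : IsType chevF4 4 CoxeterMatrix.F₄} (m : MData hp r q K₀) (P : Pcs m) (hP8 : P8a m)
    (hP8b : P8b hp r) (hP1 : P1e m) (hr2 : r ≠ 2) (hr3 : 3 ≠ r) (hq : 5 ≤ q) : GenIn m 3 := by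
  intro E hE hσ hE2
  obtain ⟨ε, hε⟩ := exists_eps m hr3
  obtain ⟨γ, hγ, hP⟩ := hP1 ε hε
  refine gamY_of hi_F4 (ne_of_apply_ne ChevalleyDatum.nroots (by decide +kernel)) m P hr2 hr3 hq hε
    (P.noPlusA γ ε hγ) hP hE hσ hE2 fun z hz hNP hnt hall => ?_
  have hSS : ∀ a ∈ H225.Gen.LL (CoxeterMatrix.F₄).toCoxeterSystem hp, a ∈ SS hp γ ε := fun a ha => ⟨ha, hγ a⟩
  refine hP8 E hE hσ hr2 hr3 hq z γ ε hε hγ hz ?_
  have hq' : 5 ≤ r ^ m.e := by rw [m.hq]; exact hq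
  have hε' : Eps 3 (r ^ m.e) ε := by rw [m.hq]; exact hε
  refine hP8b m.e _ γ _ _ (hz.sit hE hσ) hr2 hr3 hq' ε hε' hγ
    (fun f hf w hw b hb => hNP f hf w hw b (hSS b hb)) ?_ (fun a ha => hall a (hSS a ha))
  obtain ⟨f, hf, h1⟩ := hnt
  refine ⟨z⁻¹ * f * z, ⟨f, hf, ?_⟩, h1⟩
  show z⁻¹ * f * z⁻¹⁻¹ = _
  rw [inv_inv]

/-- frames in `E₆` -/
def P1g {hp : IsType chevE6 6 CoxeterMatrix.E₆} (m : MData hp r q K₀) : Prop :=
  ∀ ε, Eps 3 q ε → ∃ γ, ((∀ x, γ x = ε • x) ∨ ∀ x, γ x = ε • H720.TwFr.permE H720.TwFr.rho6 x) ∧ P1 m γ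

/-- **`E₆`, `²E₆`, p = 3.** -/
theorem genIn_E6_three {hp : IsType chevE6 6 CoxeterMatrix.E₆} (m : MData hp r q K₀) (P : Pcs m) (hP8 : P8a m)
    (hP6B : PNoPlusB m) (hP8c : P8c m) (hP1 : P1g m) (hr2 : r ≠ 2) (hr3 : 3 ≠ r) (hq : 5 ≤ q) : GenIn m 3 := by
  intro E hE hσ hE2
  obtain ⟨ε, hε⟩ := exists_eps m hr3
  obtain ⟨γ, hγ | hγ, hP⟩ := hP1 ε hε
  · exact gamY_laced hi_E6 (ne_of_apply_ne ChevalleyDatum.nroots (by decide +kernel)) (fun i j => (n6 i j).1)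
      (fun i j => (n6 i j).2) m P hP8 hr2 hr3 hq hε hγ hP hE hσ hE2
  · exact gamY_of hi_E6 (ne_of_apply_ne ChevalleyDatum.nroots (by decide +kernel)) m P hr2 hr3 hq hε
      (hP6B γ ε hγ) hP hE hσ hE2 fun z hz hNP hnt hall => hP8c E hE hσ hr2 hr3 hq z γ ε hε hγ hz hNP hnt hall

end Cfsg.Agent.H496.Mono
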