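import Cfsg.Agent.H496.Mono.Stmt
import Cfsg.Agent.H696.LevCop
import Cfsg.Agent.H496.Gen.T2Main

/-!
# S2187, X4: the action of `N(T)` on a root group (helper496)

* `nr_x` : `y x_a(t) y⁻¹ = x_{w a}(c t)`;
* `comm_neg` : `y ∈ N(T)` commuting with `X a` commutes with `X (-a)`;
* `orbF` : the fixed roots: `P5 hp r 3 (OrbF hp)`.
-/

set_option autoImplicit false
set_option linter.unusedSectionVars false

namespace Cfsg.Agent.H496.Mono

open CoxeterSystem Cfsg Cfsg.Lie Cfsg.Lie.ChevalleyDatum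
open Cfsg.Agent.ChevalleyStructure Cfsg.Agent.ChevalleyStructure.Elts Cfsg.Agent.ChevalleyStructure.CoxeterGeom
  Cfsg.Agent.ChevalleyStructure.CoxeterGeomTypes Cfsg.Agent.ChevalleyStructure.NPerm
open Cfsg.Agent.Tits.Roots Cfsg.Agent.Tits.Core Cfsg.Agent.Nodes Cfsg.Agent.Nodes.Reps Cfsg.Agent.Nodes.BNOf
  Cfsg.Agent.Nodes.SubComb Cfsg.Agent.Nodes.RGDChev Cfsg.Agent.Nodes.Bruhat Cfsg.Agent.Nodes.Coroot
  Cfsg.Agent.Nodes.StabComb
open Cfsg.Agent.KFacts.RgdField Cfsg.Agent.KFacts.RgdChevCoord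
open Cfsg.Agent.BpExc Cfsg.Agent.BpExc.TorCent Cfsg.Agent.BpExc.TorChev Cfsg.Agent.BpExc.Tow
  Cfsg.Agent.BpExc.TowChev Cfsg.Agent.BpExc.Fr Cfsg.Agent.BpExc.LangFr
open Cfsg.Agent.H469.Exc Cfsg.Agent.H316.U6 Cfsg.Agent.H818.Gen Cfsg.Agent.H818.Mono Cfsg.Agent.H696.GmnToral
open Cfsg.Agent.H225.Gen (LL LL_rep LL_root LL_neg)
open Cfsg.Agent.H818.StrP.UTab

variable {D : ChevalleyDatum} {l : ℕ} {M : CoxeterMatrix (Fin l)} {hp : IsType D l M} {r : ℕ} [Fact r.Prime]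

/-- **The action on the coordinates.** -/
theorem nr_x {w : M.Group} {y : ↥(D.group (KK r))} (h : NR hp r w y) {a : Fin l → ℤ}
    (ha : IsRoot M.toCoxeterSystem hp.isCartan a) :
    ∃ c : KK r, c ≠ 0 ∧ ∀ t, y * xc hp a t * y⁻¹ = xc hp (rep M.toCoxeterSystem hp.isCartan w a) (c * t) := by
  have C : Coords M.toCoxeterSystem hp.isCartan (TL (Tj hp (k := KK r))) (nc hp (KK r)) (XL (Xj hp (k := KK r)))
      (xc hp) (ch hp) := by
    rw [TL_eq hp (locFin r), XL_eq hp (locFin r)]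
    exact coordsL hp M.toCoxeterSystem (locFin r) r
  exact H696.LevCop.rp_x C _ h ha

/-- the torus has no `r`-elements -/
theorem eq_one_of_pow {t : ↥(D.group (KK r))} (hZ : Subgroup.center ↥(D.group (KK r)) = ⊥) (ht : t ∈ TT D (KK r))
    (hp : IsType D l M) {j : ℕ} (h1 : t ^ r ^ j = 1) : t = 1 := by
  refine eq_one_TT hp M.toCoxeterSystem (locFin r) r hZ ht fun a ha => ?_
  have h2 : ch hp a t ^ r ^ j = 1 := by
    rw [← ch_pow hp M.toCoxeterSystem (locFin r) r ha ht, h1, ch_one hp M.toCoxeterSystem (locFin r) r ha]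
  have h3 : (ch hp a t - 1) ^ r ^ j = 0 := by
    rw [sub_pow_char_pow, h2, one_pow, sub_self]
  exact sub_eq_zero.1 (pow_eq_zero_iff (pow_ne_zero _ (Fact.out : r.Prime).ne_zero) |>.1 h3)

/-- **Commuting with `X a` and with `X (-a)`.** -/
theorem comm_neg (hZ : Subgroup.center ↥(D.group (KK r)) = ⊥) {w₀ : M.Group} {y : ↥(D.group (KK r))}
    (h : NR hp r w₀ y) {a : Fin l → ℤ}
    (ha : IsRoot M.toCoxeterSystem hp.isCartan a) (hwa : rep M.toCoxeterSystem hp.isCartan w₀ a = a)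
    (hc : ∀ u ∈ XX D l (KK r) a, y * u = u * y) : ∀ u ∈ XX D l (KK r) (-a), y * u = u * y := by
  have := finite_W hp M.toCoxeterSystem
  have H := tow (k := KK r) hp M.toCoxeterSystem (locFin r) r
  intro v hv
  by_cases hv1 : v = 1
  · rw [hv1, mul_one, one_mul]
  obtain ⟨w, i, rfl⟩ := ha
  obtain ⟨g, -, hg⟩ := H.exists_rp w
  have hg' : NR hp r w g := hg
  have Fg := nr_frame hg'
  have hri := isRoot_sr M.toCoxeterSystem hp.isCartan i
  -- the element `v` in the rank one group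
  obtain ⟨v₀, hv₀⟩ : ∃ v₀, v₀ = g⁻¹ * v * g := ⟨_, rfl⟩
  have hvg : v = MulAut.conj g v₀ := by rw [MulAut.conj_apply, hv₀]; group
  have hv₀X : v₀ ∈ XX D l (KK r) (-sr i) := by
    refine (Fg.map _ hri.neg v₀).1 ?_
    rw [← hvg, map_neg]
    exact hv
  have hv₀1 : v₀ ≠ 1 := fun e => hv1 (by rw [hvg, e, map_one])
  have hvX := hv₀X
  rw [← XL_eq hp (locFin r)] at hvX
  obtain ⟨j, hj⟩ := H.mem_XL.1 hvX
  obtain ⟨a₀, ha₀, t, ht, b₀, hb₀, e0⟩ := (H.rgd j).rk1 i v₀ hj hv₀1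
  have ha₀' : a₀ ∈ XX D l (KK r) (sr i) := by rw [← XL_eq hp (locFin r)]; exact le_XL j _ ha₀
  have hb₀' : b₀ ∈ XX D l (KK r) (sr i) := by rw [← XL_eq hp (locFin r)]; exact le_XL j _ hb₀
  have ht' : t ∈ TT D (KK r) := by rw [← TL_eq hp (locFin r)]; exact le_TL j ht
  have hn₀ : NR hp r (M.toCoxeterSystem.simple i) (t * nc hp (KK r) i) := by
    have h2 : Rp M.toCoxeterSystem (H.rgd j).nsys (M.toCoxeterSystem.simple i) (t * nc hp (KK r) i) := by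
      have h3 := (rp_of_mem (cs := M.toCoxeterSystem) (hN := (H.rgd j).nsys) ht).mul
        (rp_simple M.toCoxeterSystem (H.rgd j).nsys i)
      rwa [one_mul] at h3
    exact H.rp_up (j := j) h2
  obtain ⟨n, hn⟩ : ∃ n, n = g * (t * nc hp (KK r) i) * g⁻¹ := ⟨_, rfl⟩
  have hnR : NR hp r (w * M.toCoxeterSystem.simple i * w⁻¹) n := by rw [hn]; exact nr_conj hn₀ hg'
  have hyn : NR hp r (w₀ * (w * M.toCoxeterSystem.simple i * w⁻¹) * w₀⁻¹) (y * n * y⁻¹) := nr_conj hnR h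
  have hrefl : w₀ * (w * M.toCoxeterSystem.simple i * w⁻¹) * w₀⁻¹ = w * M.toCoxeterSystem.simple i * w⁻¹ := by
    refine rep_faithful hp M.toCoxeterSystem fun x hx => ?_
    have h3 : ∀ z : Fin l → ℤ, rep M.toCoxeterSystem hp.isCartan (w * M.toCoxeterSystem.simple i * w⁻¹) z =
        z - cpr M.toCoxeterSystem hp.isCartan z (rep M.toCoxeterSystem hp.isCartan w (sr i)) •
          rep M.toCoxeterSystem hp.isCartan w (sr i) := by
      intro z
      rw [← rep_rfl'_eq]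
      rfl
    rw [rep_mul_apply, rep_mul_apply, h3, h3, map_sub, map_zsmul, hwa, ← rep_mul_apply, mul_inv_cancel, map_one,
      Module.End.one_apply]
    have h4 := cpr_rep M.toCoxeterSystem hp.isCartan w₀ (rep M.toCoxeterSystem hp.isCartan w₀⁻¹ x)
      (hri.act w)
    rw [hwa, ← rep_mul_apply, mul_inv_cancel, map_one, Module.End.one_apply] at h4
    rw [h4]
  rw [hrefl] at hyn
  have hT := nr_inv_mul_mem hnR hyn
  -- `v = u₁ n u₂`
  have hu₁ : g * a₀ * g⁻¹ ∈ XX D l (KK r) (rep M.toCoxeterSystem hp.isCartan w (sr i)) := (Fg.map _ hri a₀).2 ha₀'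
  have hu₂ : g * b₀ * g⁻¹ ∈ XX D l (KK r) (rep M.toCoxeterSystem hp.isCartan w (sr i)) := (Fg.map _ hri b₀).2 hb₀'
  obtain ⟨u₁, hu₁e⟩ : ∃ u, u = g * a₀ * g⁻¹ := ⟨_, rfl⟩
  obtain ⟨u₂, hu₂e⟩ : ∃ u, u = g * b₀ * g⁻¹ := ⟨_, rfl⟩
  rw [← hu₁e] at hu₁
  rw [← hu₂e] at hu₂
  have hvn : v = u₁ * n * u₂ := by
    rw [hvg, e0, MulAut.conj_apply, hu₁e, hu₂e, hn]; group
  have hyv : y * v * y⁻¹ = u₁ * (y * n * y⁻¹) * u₂ := by
    have h5 : y * u₁ * y⁻¹ = u₁ := by rw [hc u₁ hu₁]; group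
    have h6 : y * u₂ * y⁻¹ = u₂ := by rw [hc u₂ hu₂]; group
    calc y * v * y⁻¹ = (y * u₁ * y⁻¹) * (y * n * y⁻¹) * (y * u₂ * y⁻¹) := by rw [hvn]; group
      _ = _ := by rw [h5, h6]
  have hyvX : y * v * y⁻¹ ∈ XX D l (KK r) (-rep M.toCoxeterSystem hp.isCartan w (sr i)) := by
    have h7 := ((nr_frame h).map _ (hri.act w).neg v).2 hv
    rw [repAut_apply, map_neg, hwa] at h7
    exact h7
  have hdX : v⁻¹ * (y * v * y⁻¹) ∈ XX D l (KK r) (-rep M.toCoxeterSystem hp.isCartan w (sr i)) :=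
    mul_mem (inv_mem hv) hyvX
  obtain ⟨m, hm⟩ := H225.Gen.pow_of_rootD hp M.toCoxeterSystem (locFin r) r (hri.act w).neg hdX
  have hde : v⁻¹ * (y * v * y⁻¹) = u₂⁻¹ * (n⁻¹ * (y * n * y⁻¹)) * u₂⁻¹⁻¹ := by
    rw [hyv, hvn]; group
  have h8 : n⁻¹ * (y * n * y⁻¹) = 1 := by
    refine eq_one_of_pow hZ hT hp (j := m) ?_
    rw [hde, conj_pow] at hm
    have h9 : u₂⁻¹ * (n⁻¹ * (y * n * y⁻¹)) ^ r ^ m = u₂⁻¹ := mul_inv_eq_one.1 hm
    exact mul_eq_left.1 h9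
  rw [h8, mul_one, mul_inv_cancel] at hde
  have h10 : y * v * y⁻¹ = v := by
    have := inv_mul_eq_one.1 hde
    exact this.symm
  exact mul_inv_eq_iff_eq_mul.1 h10

/-- elements of the root group -/
theorem mem_XX_iff {a : Fin l → ℤ} (ha : IsRoot M.toCoxeterSystem hp.isCartan a) {u : ↥(D.group (KK r))} :
    u ∈ XX D l (KK r) a ↔ ∃ t, u = xc hp a t := by
  have hC := coordsL hp M.toCoxeterSystem (locFin r) r (k := KK r)
  rw [(hC.coord a ha).mem u]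
  exact ⟨fun ⟨t, h⟩ => ⟨t, h.symm⟩, fun ⟨t, h⟩ => ⟨t, h.symm⟩⟩

theorem xc_injective {a : Fin l → ℤ} (ha : IsRoot M.toCoxeterSystem hp.isCartan a) {s t : KK r}
    (h : xc hp a s = xc hp a t) : s = t := by
  obtain ⟨i, hi, rfl⟩ := (isRoot_iff hp M.toCoxeterSystem a).1 ha
  exact xc_inj hp hi h

/-- **The character of the stabiliser on `X a`.** -/
theorem exists_char {a : Fin l → ℤ} (ha : IsRoot M.toCoxeterSystem hp.isCartan a) {E' : Subgroup ↥(D.group (KK r))}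
    (hE' : ∀ y ∈ E', ∃ w, NR hp r w y ∧ rep M.toCoxeterSystem hp.isCartan w a = a) :
    ∃ χ : ↥(D.group (KK r)) → KK r, (∀ y ∈ E', χ y ≠ 0 ∧ ∀ t, y * xc hp a t * y⁻¹ = xc hp a (χ y * t)) ∧
      ∀ y ∈ E', ∀ y' ∈ E', χ (y * y') = χ y * χ y' := by
  classical
  have h1 : ∀ y : ↥(D.group (KK r)), ∃ c : KK r, y ∈ E' → c ≠ 0 ∧ ∀ t, y * xc hp a t * y⁻¹ = xc hp a (c * t) := by
    intro y
    by_cases hy : y ∈ E'
    · obtain ⟨w, hw, hwa⟩ := hE' y hy
      obtain ⟨c, hc, h2⟩ := nr_x hw ha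
      rw [hwa] at h2
      exact ⟨c, fun _ => ⟨hc, h2⟩⟩
    · exact ⟨1, fun h => absurd h hy⟩
  choose χ hχ using h1
  refine ⟨χ, hχ, fun y hy y' hy' => ?_⟩
  have h2 := (hχ _ (mul_mem hy hy')).2 1
  have h3 : y * y' * xc hp a 1 * (y * y')⁻¹ = xc hp a (χ y * (χ y' * 1)) := by
    rw [← (hχ y hy).2, ← (hχ y' hy').2]; group
  rw [h3] at h2
  have h4 := xc_injective ha h2
  rw [mul_one, mul_one] at h4
  exact h4.symm

/-- **The kernel on `⟨X a, X (-a)⟩`.** -/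
theorem exists_ker (hZ : Subgroup.center ↥(D.group (KK r)) = ⊥) {a : Fin l → ℤ}
    (ha : IsRoot M.toCoxeterSystem hp.isCartan a) {p : ℕ} [Fact p.Prime] {E' : Subgroup ↥(D.group (KK r))} [Finite ↥E']
    (hp' : ∀ y ∈ E', y ^ p = 1)
    (hE' : ∀ y ∈ E', ∃ w, NR hp r w y ∧ rep M.toCoxeterSystem hp.isCartan w a = a) :
    ∃ B ≤ E', (B = E' ∨ B.relIndex E' = p) ∧ (∀ y ∈ E', y ∈ B ↔ ∀ u ∈ XX D l (KK r) a, y * u = u * y) ∧
      ∀ y ∈ B, ∀ u ∈ XX D l (KK r) a ⊔ XX D l (KK r) (-a), y * u = u * y := by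
  obtain ⟨χ, h1, h2⟩ := exists_char ha hE'
  have h3 : ∀ y ∈ E', χ y = 1 ↔ ∀ u ∈ XX D l (KK r) a, y * u = u * y := by
    intro y hy
    constructor
    · intro h u hu
      obtain ⟨t, rfl⟩ := (mem_XX_iff (hp := hp) ha).1 hu
      have h4 := (h1 y hy).2 t
      rw [h, one_mul] at h4
      exact mul_inv_eq_iff_eq_mul.1 h4
    · intro h
      have h4 := (h1 y hy).2 1
      rw [h _ ((mem_XX_iff (hp := hp) ha).2 ⟨1, rfl⟩), mul_inv_cancel_right, mul_one] at h4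
      exact (xc_injective ha h4).symm
  let B : Subgroup ↥(D.group (KK r)) :=
    { carrier := {y | y ∈ E' ∧ ∀ u ∈ XX D l (KK r) a, y * u = u * y}
      one_mem' := ⟨one_mem _, fun u _ => by rw [one_mul, mul_one]⟩
      mul_mem' := by
        rintro x y ⟨hx, hx'⟩ ⟨hy, hy'⟩
        exact ⟨mul_mem hx hy, fun u hu => by rw [mul_assoc, hy' u hu, ← mul_assoc, hx' u hu, mul_assoc]⟩
      inv_mem' := by
        rintro x ⟨hx, hx'⟩
        exact ⟨inv_mem hx, fun u hu => by rw [inv_mul_eq_iff_eq_mul, ← mul_assoc, hx' u hu, mul_inv_cancel_right]⟩ }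
  have hB : ∀ y ∈ E', y ∈ B ↔ ∀ u ∈ XX D l (KK r) a, y * u = u * y := fun y hy => ⟨fun h => h.2, fun h => ⟨hy, h⟩⟩
  refine ⟨B, fun y hy => hy.1, ?_, hB, ?_⟩
  · exact H496.Gen.T2.relIndex_ker (χ := χ) hp' h2 (fun y hy => (h1 y hy).1) (fun y hy => hy.1) fun y hy => by
      rw [hB y hy, h3 y hy]
  · rintro y ⟨hy, hy'⟩
    obtain ⟨w, hw, hwa⟩ := hE' y hy
    have h4 := comm_neg hZ hw ha hwa hy'
    have h5 : XX D l (KK r) a ⊔ XX D l (KK r) (-a) ≤ Subgroup.centralizer {y} := by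
      refine sup_le ?_ ?_
      · intro u hu
        rw [Subgroup.mem_centralizer_singleton_iff]
        exact (hy' u hu).symm
      · intro u hu
        rw [Subgroup.mem_centralizer_singleton_iff]
        exact (h4 u hu).symm
    intro u hu
    exact (Subgroup.mem_centralizer_singleton_iff.1 (h5 hu)).symm

/-- **M5F: the fixed roots.** -/
theorem orbF (hZ : Subgroup.center ↥(D.group (KK r)) = ⊥) (h : HiList D) (p : ℕ) [Fact p.Prime] :
    P5 hp r p (OrbF hp) := by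
  intro e τ γ E H S hE2 hr2 hpr hq ε hε a ha hO u hu hτ hur
  have hE1 : p ≤ Nat.card ↥E := by
    have := (Fact.out : p.Prime).one_lt
    nlinarith
  have : Finite ↥E := by
    refine Nat.finite_of_card_ne_zero ?_
    have := (Fact.out : p.Prime).pos
    omega
  have har := LL_root h hp M.toCoxeterSystem ha.1
  obtain ⟨B, hB, hi, -, hc⟩ := exists_ker hZ har (p := p) (E' := E) S.el.2 fun y hy => by
    obtain ⟨w, hw⟩ := S.nrm y hy
    exact ⟨w, hw, hO w ⟨y, hy, hw⟩⟩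
  have hu' : u ∈ XX D l (KK r) a ⊔ XX D l (KK r) (-a) := by
    have h1 : RGD.Sup (XX D l (KK r)) {a, -a} ≤ XX D l (KK r) a ⊔ XX D l (KK r) (-a) := by
      refine RGD.Sup_le fun b hb => ?_
      rcases hb with rfl | rfl
      · exact le_sup_left
      · exact le_sup_right
    exact h1 hu
  have huO : u ∈ Orr r τ := Subgroup.subset_closure ⟨hτ, hur⟩
  rcases hi with rfl | hi
  · obtain ⟨F, hF, hFi⟩ := exists_hyperplane S.el hE1
    exact S.cent F hF hFi u huO fun x hx => hc x (hF hx) u hu'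
  · exact S.cent B hB hi u huO fun x hx => hc x hx u hu'

end Cfsg.Agent.H496.Mono
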