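import Cfsg.Agent.H496.Mono.Base
import Cfsg.Agent.H225.Gen.Row

/-!
# S2187, X4, p = 3: the statements of the pieces (hub file, helper496)

Plan: `tools/plans/S2187_X4.md`.  `cs = M.toCoxeterSystem`, `rep`, `cpr` as everywhere.

* `OrbF`, `OrbO`, `OrbA`, `OrbN` : the orbit types; `PTrich hp` : M4a (helper655);
* `P5 hp r p Orb` : M5 — `P5 hp r 3 (OrbF hp)`, `P5 hp r 3 (OrbO hp)` (helper193 / free hand), `P5 hp r 3 (OrbA hp)`,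
  `P5 hp r 3 (OrbN hp)` (helper321);
* `PNoPlusA m`, `PNoPlusB m` : M6b (helper46);
* `P8a m`, `P8b hp r`, `P8c m` : M8 (helper225, helper240, helper82);
* `P1 m γ` : M1 (helper751).
-/

set_option autoImplicit false
set_option linter.unusedSectionVars false

namespace Cfsg.Agent.H496.Mono

open CoxeterSystem Cfsg Cfsg.Lie Cfsg.Lie.ChevalleyDatum
open Cfsg.Agent.ChevalleyStructure Cfsg.Agent.ChevalleyStructure.Elts Cfsg.Agent.ChevalleyStructure.CoxeterGeom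
  Cfsg.Agent.ChevalleyStructure.CoxeterGeomTypes Cfsg.Agent.ChevalleyStructure.NPerm
open Cfsg.Agent.Tits.Roots Cfsg.Agent.Tits.Core Cfsg.Agent.Nodes Cfsg.Agent.Nodes.Reps Cfsg.Agent.Nodes.BNOf
  Cfsg.Agent.Nodes.SubComb Cfsg.Agent.Nodes.RGDChev Cfsg.Agent.Nodes.Bruhat Cfsg.Agent.Nodes.Coroot
open Cfsg.Agent.KFacts.RgdField Cfsg.Agent.KFacts.RgdChevCoord
open Cfsg.Agent.BpExc Cfsg.Agent.BpExc.TorCent Cfsg.Agent.BpExc.TorChev Cfsg.Agent.BpExc.Tow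
  Cfsg.Agent.BpExc.TowChev Cfsg.Agent.BpExc.Fr Cfsg.Agent.BpExc.LangFr
open Cfsg.Agent.H469.Exc Cfsg.Agent.H316.U6 Cfsg.Agent.H818.Gen Cfsg.Agent.H818.Mono Cfsg.Agent.H696.GmnToral
open Cfsg.Agent.H225.Gen (LL LL_rep LL_root LL_neg)
open Cfsg.Agent.H818.StrP.UTab

universe v

variable {D : ChevalleyDatum} {l : ℕ} {M : CoxeterMatrix (Fin l)} (hp : IsType D l M)

/-! ### the orbit types -/

/-- the root is fixed -/
def OrbF (V : Subgroup M.Group) (a : Fin l → ℤ) : Prop := ∀ v ∈ V, rep M.toCoxeterSystem hp.isCartan v a = a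

/-- the orbit consists of three orthogonal roots (`V` of exponent 3) -/
def OrbO (V : Subgroup M.Group) (a : Fin l → ℤ) : Prop :=
  ∃ f ∈ V, cpr M.toCoxeterSystem hp.isCartan (rep M.toCoxeterSystem hp.isCartan f a) a = 0 ∧
    ∀ v ∈ V, ∃ j : ℕ, rep M.toCoxeterSystem hp.isCartan v a = rep M.toCoxeterSystem hp.isCartan (f ^ j) a

/-- the orbit consists of three roots with sum zero -/
def OrbA (V : Subgroup M.Group) (a : Fin l → ℤ) : Prop :=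
  ∃ f ∈ V, a + rep M.toCoxeterSystem hp.isCartan f a + rep M.toCoxeterSystem hp.isCartan (f ^ 2) a = 0 ∧
    ∀ v ∈ V, ∃ j : ℕ, rep M.toCoxeterSystem hp.isCartan v a = rep M.toCoxeterSystem hp.isCartan (f ^ j) a

/-- the orbit consists of nine roots, three orthogonal triples with sum zero -/
def OrbN (V : Subgroup M.Group) (a : Fin l → ℤ) : Prop :=
  ∃ f ∈ V, ∃ g ∈ V, a + rep M.toCoxeterSystem hp.isCartan f a + rep M.toCoxeterSystem hp.isCartan (f ^ 2) a = 0 ∧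
    (∀ v ∈ V, ∃ i j : ℕ, rep M.toCoxeterSystem hp.isCartan v a =
      rep M.toCoxeterSystem hp.isCartan (g ^ i * f ^ j) a) ∧
    ∀ i j : ℕ, ¬ 3 ∣ i → cpr M.toCoxeterSystem hp.isCartan (rep M.toCoxeterSystem hp.isCartan (g ^ i * f ^ j) a) a = 0

/-- **M4a** (helper655): `D` one of `F₄, E₆, E₇, E₈` -/
def PTrich : Prop :=
  ∀ V : Subgroup M.Group, (∀ v ∈ V, ∀ w ∈ V, v * w = w * v) → (∀ v ∈ V, v ^ 3 = 1) →
    ∀ S ⊆ LL M.toCoxeterSystem hp, (∀ v ∈ V, ∀ a ∈ S, rep M.toCoxeterSystem hp.isCartan v a ∈ S) →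
    (∀ v ∈ V, ∀ a ∈ S, cpr M.toCoxeterSystem hp.isCartan (rep M.toCoxeterSystem hp.isCartan v a) a ≠ 1) →
    ∀ a ∈ S, OrbF hp V a ∨ OrbO hp V a ∨ OrbA hp V a ∨ OrbN hp V a

/-- **M5**: the orbits of type `Orb` -/
def P5 (r : ℕ) [Fact r.Prime] (p : ℕ) (Orb : Subgroup M.Group → (Fin l → ℤ) → Prop) : Prop :=
  ∀ (e : ℕ) (τ : MulAut ↥(D.group (KK r))) (γ : (Fin l → ℤ) ≃+ (Fin l → ℤ)) (E H : Subgroup ↥(D.group (KK r))),
    Sit hp r p e τ γ E H → p ^ 2 ≤ Nat.card ↥E → r ≠ 2 → p ≠ r → 5 ≤ r ^ e → ∀ ε : ℤ, Eps p (r ^ e) ε →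
    ∀ a ∈ SS hp γ ε, Orb (VE hp r E) a → InS r l τ H {a, -a}

variable {hp} {r : ℕ} [Fact r.Prime] {q : ℕ} {K₀ : Type v} [Group K₀]

/-- **M6b** (helper46): frames without `60°` -/
def PNoPlusAt (m : MData hp r q K₀) (γ : (Fin l → ℤ) ≃+ (Fin l → ℤ)) (ε : ℤ) : Prop :=
  ∀ E : Subgroup ↥(D.group (KK r)), IsElementaryAbelian 3 E → (∀ y ∈ E, m.σ y = y) → r ≠ 2 → 3 ≠ r → 5 ≤ q →
    ∀ z : ↥(D.group (KK r)), Eps 3 q ε → NFrame m E z γ →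
    ∃ z', NFrame m E z' γ ∧ NoPlus hp r (E.map (MulAut.conj z'⁻¹).toMonoidHom) (SS hp γ ε)

/-- **M6b**, `γ = ε`; `D` one of `F₄, E₆, E₇, E₈` -/
def PNoPlusA (m : MData hp r q K₀) : Prop :=
  ∀ (γ : (Fin l → ℤ) ≃+ (Fin l → ℤ)) (ε : ℤ), (∀ x, γ x = ε • x) → PNoPlusAt m γ ε

/-- **M6b**, `D = E₆`, `γ = ε ρ` -/
def PNoPlusB {M : CoxeterMatrix (Fin 6)} {hp : IsType chevE6 6 M} (m : MData hp r q K₀) : Prop :=
  ∀ (γ : (Fin 6 → ℤ) ≃+ (Fin 6 → ℤ)) (ε : ℤ), (∀ x, γ x = ε • H720.TwFr.permE H720.TwFr.rho6 x) → PNoPlusAt m γ ε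

/-- **M8a** (helper225): the end for `γ = ε` -/
def P8a (m : MData hp r q K₀) : Prop :=
  ∀ E : Subgroup ↥(D.group (KK r)), IsElementaryAbelian 3 E → (∀ y ∈ E, m.σ y = y) → r ≠ 2 → 3 ≠ r → 5 ≤ q →
    ∀ (z : ↥(D.group (KK r))) (γ : (Fin l → ℤ) ≃+ (Fin l → ℤ)) (ε : ℤ), Eps 3 q ε → (∀ x, γ x = ε • x) →
    NFrame m E z γ → (∀ a, IsRoot M.toCoxeterSystem hp.isCartan a →
      InS r l (MulAut.conj (z⁻¹ * m.σ z) * m.σ) (HZ m 3 E z) {a, -a}) → GamY m.ι 3 E = ⊤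

/-- **M8b** (helper240): `D = F₄`: the short roots -/
def P8b (hp : IsType D l M) (r : ℕ) [Fact r.Prime] : Prop :=
  ∀ (e : ℕ) (τ : MulAut ↥(D.group (KK r))) (γ : (Fin l → ℤ) ≃+ (Fin l → ℤ)) (E H : Subgroup ↥(D.group (KK r))),
    Sit hp r 3 e τ γ E H → r ≠ 2 → 3 ≠ r → 5 ≤ r ^ e → ∀ ε : ℤ, Eps 3 (r ^ e) ε → (∀ x, γ x = ε • x) →
    NoPlus hp r E (LL M.toCoxeterSystem hp) → (∃ f ∈ E, f ∉ TT D (KK r)) →
    (∀ a ∈ LL M.toCoxeterSystem hp, InS r l τ H {a, -a}) →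
    ∀ a, IsRoot M.toCoxeterSystem hp.isCartan a → InS r l τ H {a, -a}

/-- **M8c** (helper82): `E₆`, unmatched: `γ = ε ρ`, `ρ` the graph automorphism; the end -/
def P8c {M : CoxeterMatrix (Fin 6)} {hp : IsType chevE6 6 M} (m : MData hp r q K₀) : Prop :=
  ∀ E : Subgroup ↥(chevE6.group (KK r)), IsElementaryAbelian 3 E → (∀ y ∈ E, m.σ y = y) → r ≠ 2 → 3 ≠ r → 5 ≤ q →
    ∀ (z : ↥(chevE6.group (KK r))) (γ : (Fin 6 → ℤ) ≃+ (Fin 6 → ℤ)) (ε : ℤ), Eps 3 q ε →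
    (∀ x, γ x = ε • H720.TwFr.permE H720.TwFr.rho6 x) → NFrame m E z γ →
    NoPlus hp r (E.map (MulAut.conj z⁻¹).toMonoidHom) (SS hp γ ε) →
    (∃ f ∈ E, z⁻¹ * f * z ∉ TT chevE6 (KK r)) →
    (∀ a ∈ SS hp γ ε, InS r 6 (MulAut.conj (z⁻¹ * m.σ z) * m.σ) (HZ m 3 E z) {a, -a}) → GamY m.ι 3 E = ⊤

/-- **M1** (helper751): frames exist -/
def P1 (m : MData hp r q K₀) (γ : (Fin l → ℤ) ≃+ (Fin l → ℤ)) : Prop :=
  ∀ E : Subgroup ↥(D.group (KK r)), IsElementaryAbelian 3 E → (∀ y ∈ E, m.σ y = y) → ∃ z, NFrame m E z γ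

end Cfsg.Agent.H496.Mono
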